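import Cfsg.Agent.H35.RIM.BRExt

/-!
# S4816, TOOL-BR1 (helper35): the forms for the users

* `not_dvd_of_card` : `|Q| = p` implies `p ∤ |N(Q) : C(Q)|`;
* `exists_dvd_sub` : `E`, `Z` central, `Q ≤ E` abelian, `θ ∈ Irr(C_E(Q))` over `l`;
* `exists_dvd_elt` : `x ∈ E` of order `p`, `θ ∈ Irr(C_E(x))` over `l`;
* `nb_of_sub`, `nb_of_elt` : the rows `NB p m S` from data in `S` (`C_S(Q) = Q × L`).
-/

set_option autoImplicit false

namespace Cfsg.Agent.H35.RIM

open Cfsg Subgroup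

universe u

/-- `|Q| = p`: `p ∤ |N(Q) : C(Q)|` -/
theorem not_dvd_of_card {G : Type*} [Group G] [Finite G] {p : ℕ} [hp : Fact p.Prime] {Q : Subgroup G}
    (hQ : Nat.card Q = p) : ¬ p ∣ (centralizer (Q : Set G)).relIndex (normalizer (Q : Set G)) := by
  intro h
  haveI : IsCyclic Q := isCyclic_of_prime_card hQ
  have h1 : (centralizer (Q : Set G)).subgroupOf (normalizer (Q : Set G)) = (normalizerMonoidHom Q).ker :=
    (normalizerMonoidHom_ker Q).symm
  have h2 : (centralizer (Q : Set G)).relIndex (normalizer (Q : Set G)) ∣ Nat.card (MulAut Q) := by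
    rw [Subgroup.relIndex, h1, Subgroup.index_ker]
    exact Subgroup.card_subgroup_dvd_card _
  rw [IsCyclic.card_mulAut, hQ, Nat.totient_prime hp.out] at h2
  have h3 := Nat.le_of_dvd (Nat.sub_pos_of_lt hp.out.one_lt) (h.trans h2)
  have h4 := hp.out.pos
  omega

section elt

variable {E : Type*} [Group E] [Finite E] {p : ℕ} [hp : Fact p.Prime] {Z : Subgroup E} (hZ : Z ≤ center E)
  (hpm : ¬ p ∣ Nat.card Z)

include hZ hpm

/-- **TOOL-BR1 in `E`**, `H = C_E(Q)` -/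
theorem exists_dvd_sub (l : Z →* ℂˣ) {Q H : Subgroup E} (hH : H = centralizer (Q : Set E)) (hQ : IsPGroup p Q)
    (hQH : Q ≤ H) (hN : ¬ p ∣ H.relIndex (normalizer (Q : Set E))) (hns : Nat.card Q * p ∣ Nat.card E)
    (θ : ↥H → ℂ) (hθ : IsIrrCharacter ↥H θ) (hθl : ∀ (z : E) (hz : z ∈ Z) (hz' : z ∈ H), θ ⟨z, hz'⟩ = θ 1 * l ⟨z, hz⟩)
    (hdeg : Nat.card Q * p ^ (charDegree θ).factorization p = p ^ (Nat.card H).factorization p) :
    ∃ χ : E → ℂ, IsIrrCharacter E χ ∧ (∀ z : Z, χ z = χ 1 * l z) ∧ p ∣ charDegree χ := by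
  subst hH
  obtain ⟨M, hM⟩ := Cfsg.Agent.Blocks.ExistsModular.exists_isPModular hp.out
  obtain ⟨χ, hχ1, hχ2⟩ := exists_dvd hM hQ hQH hN hns ⟨θ, hθ⟩ (by
    have h1 := (Q.subgroupOf (centralizer (Q : Set E))).card_mul_index
    rw [Nat.card_congr (subgroupOfEquivOfLe hQH).toEquiv] at h1
    obtain ⟨a, ha⟩ := IsPGroup.iff_card.1 hQ
    rw [← h1, ha, ← pow_add, Nat.factorization_mul (pow_ne_zero _ hp.out.ne_zero) Subgroup.index_ne_zero_of_finite,
      Finsupp.add_apply, hp.out.factorization_pow, Finsupp.single_eq_same] at hdeg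
    have h2 := Nat.pow_right_injective hp.out.two_le hdeg
    show (charDegree θ).factorization p = _
    omega)
  refine ⟨χ, χ.2, ?_, hχ1⟩
  rintro ⟨z, hz⟩
  have hzo : ¬ p ∣ orderOf z := by
    intro h
    apply hpm
    have h3 : orderOf z ∣ Nat.card Z := by
      have := orderOf_dvd_natCard (⟨z, hz⟩ : Z)
      rwa [← Subgroup.orderOf_coe] at this
    exact h.trans h3
  have h1 := hχ2 z (hZ hz) hzo
  have h4 : θ ⟨z, center_le_centralizer _ (hZ hz)⟩ = θ 1 * l ⟨z, hz⟩ := hθl z hz _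
  have h5 : θ 1 ≠ 0 := Cfsg.Agent.Characters.Core.isIrr_apply_one_ne_zero hθ
  have h6 : (χ : E → ℂ) 1 ≠ 0 := Cfsg.Agent.Characters.Core.isIrr_apply_one_ne_zero χ.2
  have h7 : (χ : E → ℂ) z / (χ : E → ℂ) 1 = l ⟨z, hz⟩ := by
    refine h1.trans ?_
    show θ ⟨z, _⟩ / θ 1 = _
    rw [h4, mul_comm (θ 1), mul_div_assoc, div_self h5, mul_one]
  rw [div_eq_iff h6] at h7
  rw [mul_comm]
  exact h7

/-- **TOOL-BR1 in `E`, an element of order `p`** -/
theorem exists_dvd_elt (l : Z →* ℂˣ) {x : E} (hx : orderOf x = p) (hns : p ^ 2 ∣ Nat.card E)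
    (θ : ↥(centralizer ({x} : Set E)) → ℂ) (hθ : IsIrrCharacter ↥(centralizer ({x} : Set E)) θ)
    (hθl : ∀ (z : E) (hz : z ∈ Z) (hz' : z ∈ centralizer ({x} : Set E)), θ ⟨z, hz'⟩ = θ 1 * l ⟨z, hz⟩)
    (hdeg : (charDegree θ).factorization p + 1 = (Nat.card ↥(centralizer ({x} : Set E))).factorization p) :
    ∃ χ : E → ℂ, IsIrrCharacter E χ ∧ (∀ z : Z, χ z = χ 1 * l z) ∧ p ∣ charDegree χ := by
  have hQ : Nat.card (zpowers x) = p := by rw [Nat.card_zpowers, hx]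
  have hH : centralizer ({x} : Set E) = centralizer ((zpowers x : Subgroup E) : Set E) := by
    rw [zpowers_eq_closure, centralizer_closure]
  refine exists_dvd_sub hZ hpm l hH (IsPGroup.of_card (n := 1) (by rw [pow_one, hQ])) ?_ ?_ ?_ θ hθ hθl ?_
  · rw [zpowers_le, mem_centralizer_singleton_iff]
  · rw [hH]
    exact not_dvd_of_card hQ
  · rwa [hQ, ← pow_two]
  · rw [hQ, ← hdeg, pow_succ, mul_comm]

end elt

/-- **TOOL-BR1, the row from data in `S`** -/
theorem nb_of_sub {S : Type u} [Group S] [Finite S] {p m : ℕ} [hp : Fact p.Prime] (hpm : ¬ p ∣ m) {Q L : Subgroup S}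
    (hQ : IsPGroup p Q) (hQa : Q ≤ centralizer (Q : Set S))
    (hC : centralizer (Q : Set S) = Q ⊔ L) (hd : Q ⊓ L = ⊥)
    (hN : ¬ p ∣ (centralizer (Q : Set S)).relIndex (normalizer (Q : Set S))) (hns : Nat.card Q * p ∣ Nat.card S)
    (h : ∀ (E : Type u) [Group E] [Finite E] (π : E →* S), Function.Surjective π → π.ker ≤ center E →
      commutator E = ⊤ → Nat.card π.ker = m → ∀ l : π.ker →* ℂˣ, Function.Injective l →
        ∃ θ : ↥(L.comap π) → ℂ, IsIrrCharacter ↥(L.comap π) θ ∧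
          (∀ (z : E) (hz : z ∈ π.ker) (hz' : z ∈ L.comap π), θ ⟨z, hz'⟩ = θ 1 * l ⟨z, hz⟩) ∧
          (charDegree θ).factorization p = (Nat.card L).factorization p) : Cfsg.Agent.H665.RIM.NB p m S := by
  intro E _ _ π hsurj hcen hperf hcard l hl
  obtain ⟨θ, h1, h2, h3⟩ := h E π hsurj hcen hperf hcard l hl
  exact exists_dvd_ext hsurj hcen (by rwa [hcard]) l hQ hQa hC hd hN hns θ h1 h2 h3

/-- **TOOL-BR1, the row from an element `x ∈ S` of order `p` with `C_S(x) = ⟨x⟩ × L`** -/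
theorem nb_of_elt {S : Type u} [Group S] [Finite S] {p m : ℕ} [hp : Fact p.Prime] (hpm : ¬ p ∣ m) {x : S} {L : Subgroup S}
    (hx : orderOf x = p) (hC : centralizer ({x} : Set S) = zpowers x ⊔ L) (hd : zpowers x ⊓ L = ⊥)
    (hns : p ^ 2 ∣ Nat.card S)
    (h : ∀ (E : Type u) [Group E] [Finite E] (π : E →* S), Function.Surjective π → π.ker ≤ center E →
      commutator E = ⊤ → Nat.card π.ker = m → ∀ l : π.ker →* ℂˣ, Function.Injective l →
        ∃ θ : ↥(L.comap π) → ℂ, IsIrrCharacter ↥(L.comap π) θ ∧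
          (∀ (z : E) (hz : z ∈ π.ker) (hz' : z ∈ L.comap π), θ ⟨z, hz'⟩ = θ 1 * l ⟨z, hz⟩) ∧
          (charDegree θ).factorization p = (Nat.card L).factorization p) : Cfsg.Agent.H665.RIM.NB p m S := by
  have hQ : Nat.card (zpowers x) = p := by rw [Nat.card_zpowers, hx]
  have hH : centralizer ({x} : Set S) = centralizer ((zpowers x : Subgroup S) : Set S) := by
    rw [zpowers_eq_closure, centralizer_closure]
  refine nb_of_sub hpm (IsPGroup.of_card (n := 1) (by rw [pow_one, hQ])) ?_ (hH ▸ hC) hd (not_dvd_of_card hQ) ?_ h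
  · rw [← hH, zpowers_le, mem_centralizer_singleton_iff]
  · rwa [hQ, ← pow_two]

end Cfsg.Agent.H35.RIM
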