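import Cfsg.Agent.S4437
import Cfsg.Agent.S0908
import Cfsg.Agent.S0919
import Cfsg.Agent.S0969
import Cfsg.Agent.H592.Transport
import Cfsg.Agent.Blocks.CentralizerSum
import Cfsg.Agent.Blocks.BrauerMap

/-!
# S4816, TOOL-BR1 (helper35): Brauer's first main theorem as a source of characters of degree divisible by `p`

* `exists_block` : `Q` an abelian `p`-subgroup, `p ∤ |N(Q) : C(Q)|`, `θ ∈ Irr(C(Q))` of defect zero modulo `Q`: there is
  a block with defect group `Q` induced by the block of `θ`;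
* `exists_dvd` : if `Q` is not a Sylow subgroup there is `χ ∈ Irr(G)` with `p ∣ χ(1)` and the same scalars as `θ` on the
  central `p'`-elements.
-/

set_option autoImplicit false

namespace Cfsg.Agent.H35.RIM

open Cfsg Cfsg.Agent.Blocks.Local Cfsg.Agent.H592.Transport

universe u

variable {G : Type u} [Group G] {p : ℕ} [hp : Fact p.Prime] {M : Ideal AlgInt}

omit hp in
/-- roots of unity of order prime to `p` which are congruent are equal -/
theorem root_eq (hM : IsPModular p M) {m : ℕ} (hm : ¬ p ∣ m) {a b : ℂ} (ha : a ^ m = 1) (hb : b ^ m = 1)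
    (h : MemLocalIdeal M (a - b)) : a = b := by
  have hprime : M.IsPrime := isPrime_of_isPModular hM
  have hm0 : m ≠ 0 := by
    rintro rfl
    exact hm (dvd_zero p)
  have hia : IsIntegral ℤ a := by
    refine ⟨Polynomial.X ^ m - 1, Polynomial.monic_X_pow_sub_C (1 : ℤ) hm0, ?_⟩
    simp [ha]
  have hib : IsIntegral ℤ b := by
    refine ⟨Polynomial.X ^ m - 1, Polynomial.monic_X_pow_sub_C (1 : ℤ) hm0, ?_⟩
    simp [hb]
  by_contra hne
  set c := a * b ^ (m - 1) with hc
  have hbm : b ^ (m - 1) * b = 1 := by rw [← pow_succ, Nat.sub_add_cancel (Nat.pos_of_ne_zero hm0), hb]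
  have hc1 : c ≠ 1 := by
    intro e
    apply hne
    calc a = a * (b ^ (m - 1) * b) := by rw [hbm, mul_one]
      _ = c * b := by rw [hc]; ring
      _ = b := by rw [e, one_mul]
  have hcm : c ^ m = 1 := by rw [hc, mul_pow, ha, ← pow_mul, mul_comm (m - 1) m, pow_mul, hb, one_pow, mul_one]
  have hgeom : ∑ i ∈ Finset.range m, c ^ i = 0 := by
    have := mul_geom_sum c m
    rw [hcm, sub_self] at this
    exact (mul_eq_zero.1 this).resolve_left (sub_ne_zero.2 hc1)
  have hic : MemLocalRing M c :=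
    memLocalRing_mul (memLocalRing_of_isIntegral hia) (memLocalRing_pow (memLocalRing_of_isIntegral hib) _)
  have hcc : MemLocalIdeal M (c - 1) := by
    have e : c - 1 = (a - b) * b ^ (m - 1) := by
      rw [sub_mul, hc, mul_comm b, hbm]
    rw [e]
    exact memLocalIdeal_mul_right h (memLocalRing_pow (memLocalRing_of_isIntegral hib) _)
  have h2 : MemLocalIdeal M (∑ i ∈ Finset.range m, c ^ i - ∑ i ∈ Finset.range m, (1 : ℂ) ^ i) := by
    refine memLocalIdeal_sum_sub_sum fun i _ => ?_
    exact memLocalIdeal_pow_sub_pow hic memLocalRing_one hcc i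
  rw [hgeom] at h2
  simp only [one_pow, Finset.sum_const, Finset.card_range, nsmul_eq_mul, mul_one, zero_sub] at h2
  rw [memLocalIdeal_neg_iff, memLocalIdeal_natCast_iff hM] at h2
  exact hm h2

variable {Q : Subgroup G}

/-- conjugation on the centralizer -/
def cq (Q : Subgroup G) {g : G} (hg : g ∈ Subgroup.normalizer (Q : Set G)) :
    ↥(Subgroup.centralizer (Q : Set G)) ≃* ↥(Subgroup.centralizer (Q : Set G)) where
  toFun x := ⟨g⁻¹ * x * g, by
    have := Cfsg.Agent.Blocks.BrauerMap.conj_mem_centralizer (Subgroup.inv_mem _ hg) x.2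
    rwa [inv_inv] at this⟩
  invFun x := ⟨g * x * g⁻¹, Cfsg.Agent.Blocks.BrauerMap.conj_mem_centralizer hg x.2⟩
  left_inv x := Subtype.ext (by
    show g * (g⁻¹ * x * g) * g⁻¹ = x
    group)
  right_inv x := Subtype.ext (by
    show g⁻¹ * (g * x * g⁻¹) * g = x
    group)
  map_mul' x y := Subtype.ext (by
    show g⁻¹ * (x * y) * g = g⁻¹ * x * g * (g⁻¹ * y * g)
    group)

/-- the stabilizer of a set of characters of `C(Q)` in `N(Q)` -/
def stabM (Q : Subgroup G) (b : Set (IrrCharacter ↥(Subgroup.centralizer (Q : Set G)))) : Submonoid G where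
  carrier := {g | g ∈ Subgroup.normalizer (Q : Set G) ∧ ∀ θ ∈ b, ∀ θ' : IrrCharacter ↥(Subgroup.centralizer (Q : Set G)),
    (∀ h h' : ↥(Subgroup.centralizer (Q : Set G)), (h' : G) = g * h * g⁻¹ → (θ' : _ → ℂ) h' = (θ : _ → ℂ) h) → θ' ∈ b}
  one_mem' := by
    refine ⟨Subgroup.one_mem _, fun θ hθ θ' h => ?_⟩
    have : θ' = θ := by
      apply Subtype.ext
      funext x
      exact h x x (by group)
    rw [this]
    exact hθ
  mul_mem' := by
    rintro a c ⟨ha, ha'⟩ ⟨hc, hc'⟩
    refine ⟨Subgroup.mul_mem _ ha hc, fun θ hθ θ' h => ?_⟩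
    have h1 : tr (cq Q hc) θ ∈ b := by
      refine hc' θ hθ _ fun x x' hx => ?_
      rw [tr_apply]
      have e : cq Q hc x' = x := by
        apply Subtype.ext
        show c⁻¹ * (x' : G) * c = x
        rw [hx]
        group
      rw [e]
    refine ha' _ h1 θ' fun x x' hx => ?_
    rw [tr_apply]
    refine h _ x' ?_
    show (x' : G) = a * c * (c⁻¹ * (x : G) * c) * (a * c)⁻¹
    rw [hx]
    group

/-- the stabilizer as a subgroup -/
def stab [Finite G] (Q : Subgroup G) (b : Set (IrrCharacter ↥(Subgroup.centralizer (Q : Set G)))) : Subgroup G :=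
  { stabM Q b with
    inv_mem' := by
      intro g hg
      have h1 : g⁻¹ = g ^ (orderOf g - 1) := by
        rw [inv_eq_iff_mul_eq_one, ← pow_succ', Nat.sub_add_cancel (orderOf_pos g), pow_orderOf_eq_one]
      rw [h1]
      exact (stabM Q b).pow_mem hg _ }

theorem mem_stab [Finite G] {b : Set (IrrCharacter ↥(Subgroup.centralizer (Q : Set G)))} {g : G} :
    g ∈ stab Q b ↔ g ∈ Subgroup.normalizer (Q : Set G) ∧ ∀ θ ∈ b,
      ∀ θ' : IrrCharacter ↥(Subgroup.centralizer (Q : Set G)),
        (∀ h h' : ↥(Subgroup.centralizer (Q : Set G)), (h' : G) = g * h * g⁻¹ → (θ' : _ → ℂ) h' = (θ : _ → ℂ) h) →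
          θ' ∈ b := Iff.rfl

theorem le_stab [Finite G] (b : Set (IrrCharacter ↥(Subgroup.centralizer (Q : Set G)))) :
    Subgroup.centralizer (Q : Set G) ≤ stab Q b := by
  intro g hg
  refine ⟨Subgroup.centralizer_le_normalizer _ hg, fun θ hθ θ' h => ?_⟩
  have : θ' = θ := by
    apply Subtype.ext
    funext x
    have h1 := h x (⟨g, hg⟩ * x * ⟨g, hg⟩⁻¹) rfl
    rw [← h1]
    exact (Cfsg.Agent.Characters.Core.isIrr_isClassFunction θ'.2 x ⟨g, hg⟩).symm
  rw [this]
  exact hθ

/-- **a block with defect group `Q`** -/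
theorem exists_block [Finite G] (hM : IsPModular p M) (hQ : IsPGroup p Q)
    (hQa : Q ≤ Subgroup.centralizer (Q : Set G))
    (hN : ¬ p ∣ (Subgroup.centralizer (Q : Set G)).relIndex (Subgroup.normalizer (Q : Set G)))
    (θ : IrrCharacter ↥(Subgroup.centralizer (Q : Set G)))
    (hdeg : (charDegree (θ : ↥(Subgroup.centralizer (Q : Set G)) → ℂ)).factorization p =
      (Q.subgroupOf (Subgroup.centralizer (Q : Set G))).index.factorization p) :
    ∃ B : Set (IrrCharacter G), IsDefectGroup p M B Q ∧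
      IsInducedBlock M (Subgroup.centralizer (Q : Set G))
        (blockOf M (θ : ↥(Subgroup.centralizer (Q : Set G)) → ℂ)) B := by
  classical
  haveI := Fintype.ofFinite G
  haveI := Fintype.ofFinite ↥(Subgroup.centralizer (Q : Set G))
  have hb : IsPBlock M (blockOf M (θ : ↥(Subgroup.centralizer (Q : Set G)) → ℂ)) := ⟨θ, rfl⟩
  obtain ⟨B, hB⟩ := Cfsg.Agent.S0919.result p M hM Q (Subgroup.centralizer (Q : Set G)) hQ hQa le_rfl (Subgroup.centralizer_le_normalizer _) _ hb
  refine ⟨B, ?_, hB⟩
  have hbQ := (Cfsg.Agent.S0969.result p M hM (Q.subgroupOf (Subgroup.centralizer (Q : Set G))) hQ.comap_subtype (by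
    intro x hx
    rw [Subgroup.mem_center_iff]
    intro y
    apply Subtype.ext
    exact (Subgroup.mem_centralizer_iff.1 y.2 x (Subgroup.mem_subgroupOf.1 hx)).symm) θ hdeg).1
  refine (Cfsg.Agent.S4437.result p M hM Q hQ (Subgroup.centralizer (Q : Set G)) (by rw [sup_eq_right.2 hQa]) _ hb hbQ B hB
    (stab Q (blockOf M (θ : ↥(Subgroup.centralizer (Q : Set G)) → ℂ))) fun g => mem_stab).2 ?_
  intro hd
  apply hN
  have h1 : stab Q (blockOf M (θ : ↥(Subgroup.centralizer (Q : Set G)) → ℂ)) ≤ Subgroup.normalizer (Q : Set G) := fun g hg => hg.1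
  rw [← Subgroup.relIndex_mul_relIndex (Subgroup.centralizer (Q : Set G)) _ _ (le_stab _) h1]
  exact hd.mul_right _

/-- scalars of central elements -/
theorem central_value [Finite G] {χ : G → ℂ} (hχ : IsIrrCharacter G χ) {z : G} (hz : z ∈ Subgroup.center G) :
    (χ z / χ 1) ^ orderOf z = 1 := by
  obtain ⟨c, -, hc⟩ := Cfsg.Agent.Blocks.CentralizerSum.exists_central_scalar hχ hz
  have h1 : χ 1 ≠ 0 := Cfsg.Agent.Characters.Core.isIrr_apply_one_ne_zero hχ
  have h2 : ∀ m : ℕ, χ (z ^ m) = c ^ m * χ 1 := by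
    intro m
    induction m with
    | zero => simp
    | succ m ih => rw [pow_succ', hc, ih, pow_succ']; ring
  have h3 : χ z / χ 1 = c := by
    have := h2 1
    rw [pow_one, pow_one] at this
    rw [this, mul_div_assoc, div_self h1, mul_one]
  have h4 := h2 (orderOf z)
  rw [pow_orderOf_eq_one] at h4
  rw [h3]
  exact (mul_right_cancel₀ h1 (by rw [one_mul]; exact h4)).symm

/-- **a character of degree divisible by `p`** -/
theorem exists_dvd [Finite G] (hM : IsPModular p M) (hQ : IsPGroup p Q)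
    (hQa : Q ≤ Subgroup.centralizer (Q : Set G))
    (hN : ¬ p ∣ (Subgroup.centralizer (Q : Set G)).relIndex (Subgroup.normalizer (Q : Set G)))
    (hns : Nat.card Q * p ∣ Nat.card G)
    (θ : IrrCharacter ↥(Subgroup.centralizer (Q : Set G)))
    (hdeg : (charDegree (θ : ↥(Subgroup.centralizer (Q : Set G)) → ℂ)).factorization p =
      (Q.subgroupOf (Subgroup.centralizer (Q : Set G))).index.factorization p) :
    ∃ χ : IrrCharacter G, p ∣ charDegree (χ : G → ℂ) ∧ ∀ z : G, ∀ hz : z ∈ Subgroup.center G, ¬ p ∣ orderOf z →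
      (χ : G → ℂ) z / (χ : G → ℂ) 1 = (θ : ↥(Subgroup.centralizer (Q : Set G)) → ℂ)
        ⟨z, Subgroup.center_le_centralizer _ hz⟩ / (θ : ↥(Subgroup.centralizer (Q : Set G)) → ℂ) 1 := by
  classical
  obtain ⟨B, hBQ, hind⟩ := exists_block hM hQ hQa hN θ hdeg
  obtain ⟨hb, hB, hcong⟩ := hind
  have hB' := hB
  obtain ⟨χ, rfl⟩ := hB
  have hprime : M.IsPrime := isPrime_of_isPModular hM
  have hχB : χ ∈ blockOf M (χ : G → ℂ) := by
    intro g
    rw [sub_self]
    exact memLocalIdeal_zero
  have hθb : θ ∈ blockOf M (θ : ↥(Subgroup.centralizer (Q : Set G)) → ℂ) := by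
    intro g
    rw [sub_self]
    exact memLocalIdeal_zero
  refine ⟨χ, ?_, ?_⟩
  · have h1 := Cfsg.Agent.S0908.result p M hM _ hB' Q hBQ
    rw [blockDefect] at h1
    set s := sInf ((fun χ : IrrCharacter G => (charDegree (χ : G → ℂ)).factorization p) '' blockOf M (χ : G → ℂ)) with hs
    have h2 : s ≤ (charDegree (χ : G → ℂ)).factorization p := Nat.sInf_le ⟨χ, hχB, rfl⟩
    have h3 : s ≠ 0 := by
      intro e
      rw [e, Nat.sub_zero] at h1
      rw [h1, ← pow_succ] at hns
      exact Nat.pow_succ_factorization_not_dvd Nat.card_pos.ne' hp.out hns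
    exact Nat.dvd_of_factorization_pos (by omega)
  · intro z hz hzp
    have h1 := hcong θ hθb χ hχB z
    have e1 : inducedCentralChar (Subgroup.centralizer (Q : Set G)) (θ : ↥(Subgroup.centralizer (Q : Set G)) → ℂ) z =
        (θ : ↥(Subgroup.centralizer (Q : Set G)) → ℂ) ⟨z, Subgroup.center_le_centralizer _ hz⟩ /
          (θ : ↥(Subgroup.centralizer (Q : Set G)) → ℂ) 1 := by
      rw [inducedCentralChar]
      have e2 : {h : ↥(Subgroup.centralizer (Q : Set G)) | IsConj z (h : G)} =
          {⟨z, Subgroup.center_le_centralizer _ hz⟩} := by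
        ext h
        rw [Set.mem_ofPred_eq, Set.mem_singleton_iff]
        constructor
        · intro h2
          obtain ⟨c, hc⟩ := isConj_iff.1 h2
          apply Subtype.ext
          show (h : G) = z
          rw [← hc, Subgroup.mem_center_iff.1 hz c, mul_inv_cancel_right]
        · rintro rfl
          exact IsConj.refl _
      rw [e2, finsum_mem_singleton]
    have e3 : centralChar (χ : G → ℂ) z = (χ : G → ℂ) z / (χ : G → ℂ) 1 := by
      rw [centralChar]
      have e4 : Subgroup.centralizer ({z} : Set G) = ⊤ := by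
        rw [Subgroup.eq_top_iff']
        intro g
        rw [Subgroup.mem_centralizer_singleton_iff]
        exact Subgroup.mem_center_iff.1 hz g
      rw [e4, Subgroup.index_top, Nat.cast_one, one_mul]
    rw [e1, e3] at h1
    have hz' : (⟨z, Subgroup.center_le_centralizer _ hz⟩ : ↥(Subgroup.centralizer (Q : Set G))) ∈
        Subgroup.center ↥(Subgroup.centralizer (Q : Set G)) := by
      rw [Subgroup.mem_center_iff]
      intro g
      apply Subtype.ext
      exact Subgroup.mem_center_iff.1 hz g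
    refine (root_eq hM hzp ?_ (central_value χ.2 hz) h1).symm
    have h5 := central_value θ.2 hz'
    rwa [← Subgroup.orderOf_coe] at h5

end Cfsg.Agent.H35.RIM
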