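import Cfsg.Agent.H35.RIM.BR1
import Cfsg.Agent.Blocks.ExistsModular
import Cfsg.Agent.H665.RIM.Defs

/-!
# S4816, TOOL-BR1 (helper35), the form for central extensions

`exists_dvd_ext` : `π : E → S` a central extension with kernel of order prime to `p`, `Q` an abelian `p`-subgroup of `S`, not
Sylow, with `C_S(Q) = Q × L`, `p ∤ |N_S(Q) : C_S(Q)|`, `θ` an irreducible character of the preimage of `L` over `l` of
`p`-defect zero (`θ(1)_p = |L|_p`). Then some irreducible character of `E` over `l` has degree divisible by `p`.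

* `exists_dvd_of_card` : `|Q| = p` (no hypothesis on `N_S(Q)`).
-/

set_option autoImplicit false

namespace Cfsg.Agent.H35.RIM

open Cfsg Subgroup

universe u

section ext

variable {E S : Type*} [Group E] [Finite E] [Group S] {π : E →* S} (hsurj : Function.Surjective π)
  (hcen : π.ker ≤ center E) {p : ℕ} [hp : Fact p.Prime] (hpm : ¬ p ∣ Nat.card π.ker)

include hsurj

theorem card_comap' (Q : Subgroup S) : Nat.card ↥(Q.comap π) = Nat.card Q * Nat.card π.ker := by
  haveI : Finite S := Finite.of_surjective _ hsurj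
  have h1 := (Q.comap π).card_mul_index
  rw [Subgroup.index_comap_of_surjective _ hsurj] at h1
  have h2 := π.ker.card_mul_index
  rw [Subgroup.index_ker, MonoidHom.range_eq_top.2 hsurj, Subgroup.card_top, ← Q.card_mul_index] at h2
  have h3 : Q.index ≠ 0 := Subgroup.index_ne_zero_of_finite
  have h4 : Nat.card ↥(Q.comap π) * Q.index = (Nat.card Q * Nat.card π.ker) * Q.index := by
    rw [h1, ← h2]
    ring
  exact Nat.eq_of_mul_eq_mul_right (Nat.pos_of_ne_zero h3) h4

include hpm

/-- a `p`-subgroup lifts -/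
theorem exists_lift {Q : Subgroup S} (hQ : IsPGroup p Q) : ∃ R : Subgroup E, IsPGroup p R ∧ R.map π = Q ∧
    Nat.card R = Nat.card Q ∧ R ⊓ π.ker = ⊥ := by
  haveI : Finite S := Finite.of_surjective _ hsurj
  obtain ⟨P⟩ : Nonempty (Sylow p ↥(Q.comap π)) := inferInstance
  set R : Subgroup E := (P : Subgroup ↥(Q.comap π)).map (Q.comap π).subtype with hR
  have hRp : IsPGroup p R := P.isPGroup'.map _
  have hker : R ⊓ π.ker = ⊥ := by
    have h1 : IsPGroup p ↥(R ⊓ π.ker) := hRp.to_le inf_le_left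
    obtain ⟨k, hk⟩ := IsPGroup.iff_card.1 h1
    have h2 : Nat.card ↥(R ⊓ π.ker) ∣ Nat.card π.ker := card_dvd_of_le inf_le_right
    rw [hk] at h2
    rcases Nat.eq_zero_or_pos k with h | h
    · rw [h, pow_zero] at hk
      exact Subgroup.card_eq_one.1 hk
    · exact absurd ((dvd_pow_self p h.ne').trans h2) hpm
  have hcardR : Nat.card R = p ^ (Nat.card ↥(Q.comap π)).factorization p := by
    rw [hR, Subgroup.card_map_of_injective (subtype_injective _)]
    exact P.card_eq_multiplicity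
  have hcardQ : Nat.card ↥(Q.comap π) = Nat.card Q * Nat.card π.ker := card_comap' hsurj Q
  obtain ⟨a, ha⟩ := IsPGroup.iff_card.1 hQ
  have hcard : Nat.card R = Nat.card Q := by
    rw [hcardR, hcardQ, Nat.factorization_mul Nat.card_pos.ne' Nat.card_pos.ne', Finsupp.add_apply,
      Nat.factorization_eq_zero_of_not_dvd hpm, add_zero, ha, hp.out.factorization_pow, Finsupp.single_eq_same]
  have hle : R.map π ≤ Q := by
    rintro _ ⟨r, hr, rfl⟩
    obtain ⟨x, -, rfl⟩ := hr
    exact x.2
  have hinj : Set.InjOn π R := by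
    intro x hx y hy e
    have h0 : x⁻¹ * y ∈ π.ker := by
      rw [MonoidHom.mem_ker, map_mul, map_inv, e, inv_mul_cancel]
    have h1 : x⁻¹ * y ∈ R ⊓ π.ker := ⟨R.mul_mem (R.inv_mem hx) hy, h0⟩
    rw [hker, mem_bot, inv_mul_eq_one] at h1
    exact h1
  refine ⟨R, hRp, ?_, hcard, hker⟩
  apply Subgroup.eq_of_le_of_card_ge hle
  rw [← hcard]
  have h1 : Nat.card ↥(R.map π) = Nat.card R := by
    symm
    apply Nat.card_congr
    refine Equiv.ofBijective (fun r => ⟨π r, ⟨r, r.2, rfl⟩⟩) ⟨?_, ?_⟩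
    · intro r s h
      exact Subtype.ext (hinj r.2 s.2 (congrArg Subtype.val h))
    · rintro ⟨_, r, hr, rfl⟩
      exact ⟨⟨r, hr⟩, rfl⟩
  rw [h1]

include hcen

/-- the centralizer of the lift -/
theorem centralizer_lift {Q : Subgroup S} {R : Subgroup E} (hR : IsPGroup p R) (hRQ : R.map π = Q) :
    centralizer (R : Set E) = (centralizer (Q : Set S)).comap π := by
  ext c
  rw [mem_comap, mem_centralizer_iff, mem_centralizer_iff]
  constructor
  · intro h q hq
    rw [← hRQ] at hq
    obtain ⟨r, hr, rfl⟩ := hq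
    rw [← map_mul, ← map_mul, h r hr]
  · intro h r hr
    have h1 := h (π r) (by
      rw [← hRQ]
      exact ⟨r, hr, rfl⟩)
    set z := c * r * c⁻¹ * r⁻¹ with hz
    have hzk : z ∈ π.ker := by
      rw [MonoidHom.mem_ker, hz, map_mul, map_mul, map_mul, map_inv, map_inv, ← h1, mul_inv_cancel_right, mul_inv_cancel]
    have hzc := hcen hzk
    have e1 : c * r * c⁻¹ = z * r := by rw [hz]; group
    obtain ⟨k, hk⟩ := hR ⟨r, hr⟩
    have hk' : r ^ p ^ k = 1 := congrArg Subtype.val hk
    have e2 : z ^ p ^ k = 1 := by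
      have e3 : (z * r) ^ p ^ k = 1 := by
        rw [← e1, conj_pow, hk', mul_one, mul_inv_cancel]
      have hcomm : Commute z r := (mem_center_iff.1 hzc r).symm
      rw [hcomm.mul_pow, hk', mul_one] at e3
      exact e3
    have e4 : z = 1 := by
      have h2 : orderOf z ∣ p ^ k := orderOf_dvd_of_pow_eq_one e2
      have h3 : orderOf z ∣ Nat.card π.ker := by
        have := orderOf_dvd_natCard (⟨z, hzk⟩ : π.ker)
        rwa [← Subgroup.orderOf_coe] at this
      have h4 : Nat.Coprime (p ^ k) (Nat.card π.ker) := Nat.Coprime.pow_left _ ((Nat.Prime.coprime_iff_not_dvd hp.out).2 hpm)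
      rw [← orderOf_eq_one_iff]
      exact Nat.eq_one_of_dvd_coprimes h4 h2 h3
    rw [e4, one_mul, mul_inv_eq_iff_eq_mul] at e1
    exact e1.symm

/-- **TOOL-BR1 for central extensions.** -/
theorem exists_dvd_ext (l : π.ker →* ℂˣ) {Q L : Subgroup S} (hQ : IsPGroup p Q) (hQa : Q ≤ centralizer (Q : Set S))
    (hC : centralizer (Q : Set S) = Q ⊔ L) (hd : Q ⊓ L = ⊥)
    (hN : ¬ p ∣ (centralizer (Q : Set S)).relIndex (normalizer (Q : Set S))) (hns : Nat.card Q * p ∣ Nat.card S)
    (θ : ↥(L.comap π) → ℂ) (hθ : IsIrrCharacter ↥(L.comap π) θ)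
    (hθl : ∀ (z : E) (hz : z ∈ π.ker) (hz' : z ∈ L.comap π), θ ⟨z, hz'⟩ = θ 1 * l ⟨z, hz⟩)
    (hdeg : (charDegree θ).factorization p = (Nat.card L).factorization p) :
    ∃ χ : E → ℂ, IsIrrCharacter E χ ∧ (∀ z : π.ker, χ z = χ 1 * l z) ∧ p ∣ charDegree χ := by
  classical
  haveI : Finite S := Finite.of_surjective _ hsurj
  obtain ⟨M, hM⟩ := Cfsg.Agent.Blocks.ExistsModular.exists_isPModular hp.out
  obtain ⟨R, hR, hRQ, hRcard, hRk⟩ := exists_lift hsurj hpm hQ
  have hCR := centralizer_lift hsurj hcen hpm hR hRQ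
  have hLC : L ≤ centralizer (Q : Set S) := hC ▸ le_sup_right
  have hRC : R ≤ centralizer (R : Set E) := by
    rw [hCR]
    intro r hr
    rw [mem_comap]
    apply hQa
    rw [← hRQ]
    exact ⟨r, hr, rfl⟩
  have hLR : L.comap π ≤ centralizer (R : Set E) := by
    rw [hCR]
    exact comap_mono hLC
  -- the decomposition
  let f : ↥R × ↥(L.comap π) →* ↥(centralizer (R : Set E)) :=
    { toFun := fun x => ⟨x.1 * x.2, mul_mem (hRC x.1.2) (hLR x.2.2)⟩
      map_one' := Subtype.ext (one_mul _)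
      map_mul' := by
        rintro ⟨a, b⟩ ⟨c, d⟩
        apply Subtype.ext
        show (a * c : E) * (b * d : E) = a * b * (c * d)
        have h1 : (c : E) * b = b * c := mem_centralizer_iff.1 (hLR b.2) c c.2
        calc (a * c : E) * (b * d : E) = a * (c * b) * d := by group
          _ = a * b * (c * d) := by rw [h1]; group }
  have hfi : Function.Injective f := by
    rw [injective_iff_map_eq_one]
    rintro ⟨a, b⟩ h
    have h1 : (a : E) * b = 1 := congrArg Subtype.val h
    have h2 : (a : E) = (b : E)⁻¹ := mul_eq_one_iff_eq_inv.1 h1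
    have h3 : π a ∈ Q ⊓ L := by
      refine ⟨?_, ?_⟩
      · rw [← hRQ]
        exact ⟨a, a.2, rfl⟩
      · rw [h2, map_inv]
        exact L.inv_mem b.2
    rw [hd, mem_bot] at h3
    have h4 : (a : E) ∈ R ⊓ π.ker := ⟨a.2, h3⟩
    rw [hRk, mem_bot] at h4
    have h5 : (b : E) = 1 := by rw [h4, one_mul] at h1; exact h1
    exact Prod.ext (Subtype.ext h4) (Subtype.ext h5)
  have hfs : Function.Surjective f := by
    rintro ⟨c, hc⟩
    have hc' : π c ∈ Q ⊔ L := by
      rw [← hC, ← mem_comap, ← hCR]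
      exact hc
    obtain ⟨q, hq, y, hy, e⟩ : ∃ q ∈ Q, ∃ y ∈ L, q * y = π c := by
      let K : Subgroup S :=
        { carrier := {x | ∃ q ∈ Q, ∃ y ∈ L, q * y = x}
          one_mem' := ⟨1, Q.one_mem, 1, L.one_mem, one_mul 1⟩
          mul_mem' := by
            rintro _ _ ⟨q, hq, y, hy, rfl⟩ ⟨q', hq', y', hy', rfl⟩
            refine ⟨q * q', Q.mul_mem hq hq', y * y', L.mul_mem hy hy', ?_⟩
            have h1 : q' * y = y * q' := mem_centralizer_iff.1 (hLC hy) q' hq'
            calc q * q' * (y * y') = q * (q' * y) * y' := by group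
              _ = q * y * (q' * y') := by rw [h1]; group
          inv_mem' := by
            rintro _ ⟨q, hq, y, hy, rfl⟩
            refine ⟨q⁻¹, Q.inv_mem hq, y⁻¹, L.inv_mem hy, ?_⟩
            have h1 : q * y = y * q := mem_centralizer_iff.1 (hLC hy) q hq
            rw [h1, mul_inv_rev] }
      have hK : Q ⊔ L ≤ K := sup_le (fun q hq => ⟨q, hq, 1, L.one_mem, mul_one q⟩)
        (fun y hy => ⟨1, Q.one_mem, y, hy, one_mul y⟩)
      exact hK hc'
    rw [← hRQ] at hq
    obtain ⟨r, hr, rfl⟩ := hq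
    refine ⟨(⟨r, hr⟩, ⟨r⁻¹ * c, ?_⟩), ?_⟩
    · rw [mem_comap, map_mul, map_inv, ← e, inv_mul_cancel_left]
      exact hy
    · apply Subtype.ext
      show r * (r⁻¹ * c) = c
      rw [mul_inv_cancel_left]
  let e : ↥R × ↥(L.comap π) ≃* ↥(centralizer (R : Set E)) := MulEquiv.ofBijective f ⟨hfi, hfs⟩
  let pr : ↥(centralizer (R : Set E)) →* ↥(L.comap π) := (MonoidHom.snd _ _).comp e.symm.toMonoidHom
  have hprs : Function.Surjective pr := by
    intro b
    exact ⟨e (1, b), by
      show (e.symm (e (1, b))).2 = b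
      rw [MulEquiv.symm_apply_apply]⟩
  let θ' : IrrCharacter ↥(centralizer (R : Set E)) := ⟨θ ∘ pr, Cfsg.Agent.Characters.Core.isIrr_comp pr hprs hθ⟩
  have hθ1 : (θ' : ↥(centralizer (R : Set E)) → ℂ) 1 = θ 1 := by
    show θ (pr 1) = θ 1
    rw [map_one]
  have hns' : Nat.card R * p ∣ Nat.card E := by
    rw [hRcard]
    exact hns.trans (Subgroup.card_dvd_of_surjective π hsurj)
  have hN' : ¬ p ∣ (centralizer (R : Set E)).relIndex (normalizer (R : Set E)) := by
    intro h
    apply hN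
    have h1 : normalizer (R : Set E) ≤ (normalizer (Q : Set S)).comap π := by
      intro g hg
      rw [mem_comap, mem_normalizer_iff]
      have key : ∀ g ∈ normalizer (R : Set E), ∀ q ∈ Q, π g * q * (π g)⁻¹ ∈ Q := by
        intro g hg q hq
        rw [← hRQ] at hq ⊢
        obtain ⟨r, hr, rfl⟩ := hq
        exact ⟨g * r * g⁻¹, (mem_normalizer_iff.1 hg r).1 hr, by rw [map_mul, map_mul, map_inv]⟩
      intro q
      refine ⟨key g hg q, fun h => ?_⟩
      have h2 := key g⁻¹ (inv_mem hg) _ h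
      rw [map_inv, inv_inv] at h2
      have h3 : (π g)⁻¹ * (π g * q * (π g)⁻¹) * π g = q := by group
      rwa [h3] at h2
    have h2 : (centralizer (R : Set E)).relIndex ((normalizer (Q : Set S)).comap π) =
        (centralizer (Q : Set S)).relIndex (normalizer (Q : Set S)) := by
      rw [hCR, Subgroup.relIndex_comap, Subgroup.map_comap_eq_self_of_surjective hsurj]
    rw [← h2, ← Subgroup.relIndex_mul_relIndex _ _ _ (centralizer_le_normalizer _) h1]
    exact h.mul_right _
  have hdeg' : (charDegree (θ' : ↥(centralizer (R : Set E)) → ℂ)).factorization p =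
      (R.subgroupOf (centralizer (R : Set E))).index.factorization p := by
    have h1 : charDegree (θ' : ↥(centralizer (R : Set E)) → ℂ) = charDegree θ := by
      rw [charDegree, charDegree, hθ1]
    have h2 : (R.subgroupOf (centralizer (R : Set E))).index = Nat.card ↥(L.comap π) := by
      have h3 := (R.subgroupOf (centralizer (R : Set E))).card_mul_index
      rw [Nat.card_congr (subgroupOfEquivOfLe hRC).toEquiv, ← Nat.card_congr e.toEquiv, Nat.card_prod] at h3
      exact Nat.eq_of_mul_eq_mul_left Nat.card_pos h3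
    rw [h1, h2, hdeg, card_comap' hsurj, Nat.factorization_mul Nat.card_pos.ne' Nat.card_pos.ne', Finsupp.add_apply,
      Nat.factorization_eq_zero_of_not_dvd hpm, add_zero]
  obtain ⟨χ, hχ1, hχ2⟩ := exists_dvd hM hR hRC hN' hns' θ' hdeg'
  refine ⟨χ, χ.2, ?_, hχ1⟩
  rintro ⟨z, hz⟩
  have hzL : z ∈ L.comap π := by
    rw [mem_comap, MonoidHom.mem_ker.1 hz]
    exact L.one_mem
  have hzo : ¬ p ∣ orderOf z := by
    intro h
    apply hpm
    have h3 : orderOf z ∣ Nat.card π.ker := by
      have := orderOf_dvd_natCard (⟨z, hz⟩ : π.ker)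
      rwa [← Subgroup.orderOf_coe] at this
    exact h.trans h3
  have h1 := hχ2 z (hcen hz) hzo
  have h2 : pr ⟨z, center_le_centralizer _ (hcen hz)⟩ = ⟨z, hzL⟩ := by
    have h3 : (⟨z, center_le_centralizer _ (hcen hz)⟩ : ↥(centralizer (R : Set E))) = e (1, ⟨z, hzL⟩) := by
      apply Subtype.ext
      show z = 1 * z
      rw [one_mul]
    show (e.symm _).2 = _
    rw [h3, MulEquiv.symm_apply_apply]
  have h4 : (θ' : ↥(centralizer (R : Set E)) → ℂ) ⟨z, center_le_centralizer _ (hcen hz)⟩ = θ 1 * l ⟨z, hz⟩ := by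
    show θ (pr _) = _
    rw [h2]
    exact hθl z hz hzL
  have h5 : θ 1 ≠ 0 := Cfsg.Agent.Characters.Core.isIrr_apply_one_ne_zero hθ
  have h6 : (χ : E → ℂ) 1 ≠ 0 := Cfsg.Agent.Characters.Core.isIrr_apply_one_ne_zero χ.2
  rw [h4, hθ1, mul_comm (θ 1), mul_div_assoc, div_self h5, mul_one, div_eq_iff h6] at h1
  rw [mul_comm]
  exact h1

end ext

end Cfsg.Agent.H35.RIM
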